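import Cfsg.Agent.Lib.Helper39.GL2Char.Unip
import Cfsg.Agent.Lib.Helper80.Inflation

set_option autoImplicit false

namespace Cfsg.Agent.Lib.Lead.ReeDeg

open Cfsg Cfsg.Agent.Lib Cfsg.Agent.Lib.Helper15
open scoped ComplexConjugate

/-- [D-A] -/
theorem deg_decomp {G : Type*} [Group G] [Finite G] {F : Type*} [Field F] [Fintype F]
    (a : Multiplicative (F × F) →* G)
    (hx : ∀ t u v : F, IsConj (a (Multiplicative.ofAdd (u, v))) (a (Multiplicative.ofAdd (u, v + t * u))))
    (hh : ∀ v : F, v ≠ 0 → IsConj (a (Multiplicative.ofAdd (0, v))) (a (Multiplicative.ofAdd (0, 1))))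
    {χ : G → ℂ} (hχ : IsCharacter G χ) (hne : χ (a (Multiplicative.ofAdd (0, 1))) ≠ χ 1)
    {n : ℕ} (hn : χ 1 = n) :
    ∃ a0 e : ℕ, e ≠ 0 ∧ n = a0 + (Fintype.card F - 1) * Fintype.card F * e ∧
      ∑ v : F, χ (a (Multiplicative.ofAdd (0, v))) = (Fintype.card F : ℂ) * a0 := by
  classical
  have hcf : IsClassFunction G χ := Helper80.isClassFunction_of_char hχ
  have hconj : ∀ x y : G, IsConj x y → χ x = χ y := by
    intro x y hxy
    obtain ⟨g, hg⟩ := isConj_iff.1 hxy
    rw [← hg, hcf]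
  set q := Fintype.card F with hq
  have hq0 : (q : ℂ) ≠ 0 := by
    exact_mod_cast Fintype.card_ne_zero
  have hq1 : 1 ≤ q := Fintype.card_pos
  set c := χ (a (Multiplicative.ofAdd (0, 1))) with hc
  let f0 : F → ℂ := fun v => χ (a (Multiplicative.ofAdd ((0 : F), v)))
  have hf00 : f0 0 = n := by
    rw [← hn]
    show χ (a (Multiplicative.ofAdd ((0 : F), (0 : F)))) = χ 1
    have : (Multiplicative.ofAdd ((0 : F), (0 : F))) = 1 := rfl
    rw [this, map_one]
  have hf0c : ∀ v, v ≠ 0 → f0 v = c := fun v hv => hconj _ _ (hh v hv)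
  obtain ⟨lam, hlam⟩ := Helper39.exists_addChar_ne_one (F := F)
  have hlam1 : lam ≠ 1 := Helper39.IsPrimitive_ne_one hlam
  -- a0
  let u0 : Multiplicative F →* G := a.comp (AddMonoidHom.toMultiplicative (AddMonoidHom.inr F F))
  obtain ⟨a0, ha0⟩ := Helper39.addMult_nat u0 hχ (1 : AddChar F ℂ)
  have ha0' : Helper39.addMult f0 1 = a0 := ha0
  have e1 : (n : ℂ) + ((q : ℂ) - 1) * c = q * a0 := by
    rw [← ha0', Helper39.addMult_one_of_const hf0c, hf00, ← hq]
    field_simp
  have hsum0 : ∑ v : F, f0 v = (q : ℂ) * a0 := by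
    rw [← ha0']
    unfold Helper39.addMult
    rw [← hq, ← mul_assoc, mul_inv_cancel₀ hq0, one_mul]
    simp
  -- e
  let ψ : AddChar (F × F) ℂ := lam.compAddMonoidHom (AddMonoidHom.snd F F)
  have hψirr : IsIrrCharacter (Multiplicative (F × F)) (fun x => ψ (Multiplicative.toAdd x)) :=
    Helper3.isIrrCharacter_of_hom (ψ.toMonoidHom).toHomUnits
  obtain ⟨e, he⟩ := inner_nat (Helper3.IsCharacter.comp_hom hχ a) (irr_char hψirr)
  have hsum1 : ∑ v : F, f0 v * conj (lam v) = (n : ℂ) - c := by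
    have h1 := Helper39.addMult_of_const hf0c hlam1
    unfold Helper39.addMult at h1
    rw [hf00, ← hq] at h1
    field_simp at h1
    exact h1
  have e2 : (n : ℂ) - c = (q : ℂ) ^ 2 * e := by
    rw [← he]
    unfold classInner
    have hcard : (Nat.card (Multiplicative (F × F)) : ℂ) = (q : ℂ) ^ 2 := by
      rw [Nat.card_eq_fintype_card, Fintype.card_multiplicative, Fintype.card_prod]
      push_cast
      ring
    rw [hcard, ← mul_assoc, mul_inv_cancel₀ (pow_ne_zero 2 hq0), one_mul]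
    have h2 : ∑ g : Multiplicative (F × F), (χ ∘ ⇑a) g * conj ((fun x => ψ (Multiplicative.toAdd x)) g) =
        ∑ p : F × F, χ (a (Multiplicative.ofAdd p)) * conj (lam p.2) :=
      Fintype.sum_equiv Multiplicative.toAdd _ _ (fun x => rfl)
    rw [h2, Fintype.sum_prod_type, Finset.sum_eq_single (0 : F)]
    · exact hsum1.symm
    · intro u _ hu
      have h3 : ∀ v : F, χ (a (Multiplicative.ofAdd (u, v))) = χ (a (Multiplicative.ofAdd (u, 0))) := by
        intro v
        have := hconj _ _ (hx (v / u) u 0)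
        rw [zero_add, div_mul_cancel₀ v hu] at this
        exact this.symm
      simp only [h3]
      rw [← Finset.mul_sum, Helper39.sum_addChar_conj hlam1, mul_zero]
    · intro h
      exact absurd (Finset.mem_univ _) h
  refine ⟨a0, e, ?_, ?_, hsum0⟩
  · rintro rfl
    apply hne
    rw [hn]
    simp only [Nat.cast_zero, mul_zero] at e2
    exact (sub_eq_zero.1 e2).symm
  · have h3 : (q : ℂ) * n = q * (a0 + ((q : ℂ) - 1) * q * e) := by
      linear_combination e1 + ((q : ℂ) - 1) * e2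
    have h4 : (n : ℂ) = a0 + ((q : ℂ) - 1) * q * e := mul_left_cancel₀ hq0 h3
    have h5 : ((n : ℕ) : ℂ) = ((a0 + (q - 1) * q * e : ℕ) : ℂ) := by
      push_cast [Nat.cast_sub hq1]
      exact h4
    exact_mod_cast h5

end Cfsg.Agent.Lib.Lead.ReeDeg
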