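import Cfsg.Agent.Lib.Helper39.GL2Char.Unip
import Cfsg.Agent.Lib.Helper80.Inflation

set_option autoImplicit false

namespace Cfsg.Agent.Lib.Lead.ReeDeg

open Cfsg Cfsg.Agent.Lib Cfsg.Agent.Lib.Helper15
open scoped ComplexConjugate

/-- [D-B] -/
theorem char_eq_zero_of_sum {G : Type*} [Group G] [Finite G] {A : Type*} [AddCommGroup A] [Fintype A]
    (hodd : Odd (Fintype.card A))
    (z : Multiplicative A →* G) (i : G) (hi : i * i = 1)
    (hiz : ∀ v : A, i * z (Multiplicative.ofAdd v) * i⁻¹ = z (Multiplicative.ofAdd (-v)))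
    {χ : G → ℂ} (hχ : IsCharacter G χ) (h0 : ∑ v : A, χ (z (Multiplicative.ofAdd v)) = 0) : χ i = 0 := by
  obtain ⟨d, ρ, rfl⟩ := hχ
  have hcard : (Fintype.card A : ℂ) ≠ 0 := by
    exact_mod_cast Fintype.card_ne_zero
  let Pm : Module.End ℂ (Fin d → ℂ) := ∑ v : A, ρ (z (Multiplicative.ofAdd v))
  have hPP : Pm * Pm = (Fintype.card A : ℂ) • Pm := by
    show (∑ v : A, ρ (z (Multiplicative.ofAdd v))) * Pm = _
    rw [Finset.sum_mul]
    have h1 : ∀ v : A, ρ (z (Multiplicative.ofAdd v)) * Pm = Pm := by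
      intro v
      show ρ (z (Multiplicative.ofAdd v)) * (∑ w : A, ρ (z (Multiplicative.ofAdd w))) = _
      rw [Finset.mul_sum]
      refine Fintype.sum_equiv (Equiv.addLeft v) _ _ ?_
      intro w
      rw [← map_mul, ← map_mul, ← ofAdd_add]
      rfl
    rw [Finset.sum_congr rfl (fun v _ => h1 v), Finset.sum_const, Finset.card_univ,
      ← Nat.cast_smul_eq_nsmul ℂ]
  let e : Module.End ℂ (Fin d → ℂ) := (Fintype.card A : ℂ)⁻¹ • Pm
  have he : IsIdempotentElem e := by
    show e * e = e
    simp only [e]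
    rw [smul_mul_smul_comm, hPP, smul_smul]
    congr 1
    field_simp
  have hte : LinearMap.trace ℂ _ e = 0 := by
    show LinearMap.trace ℂ _ ((Fintype.card A : ℂ)⁻¹ • ∑ v : A, ρ (z (Multiplicative.ofAdd v))) = 0
    rw [map_smul, map_sum]
    have : ∑ v : A, LinearMap.trace ℂ _ (ρ (z (Multiplicative.ofAdd v))) = 0 := h0
    rw [this, smul_zero]
  have he0 : e = 0 := LinearMap.IsIdempotentElem.eq_zero_of_trace_eq_zero he hte
  have hP0 : Pm = 0 := by
    have h1 : (Fintype.card A : ℂ) • e = Pm := by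
      simp only [e]
      rw [smul_smul, mul_inv_cancel₀ hcard, one_smul]
    rw [← h1, he0, smul_zero]
  have hsum : ∑ v : A, ρ.character (z (Multiplicative.ofAdd v) * i) = 0 := by
    have h1 : ∑ v : A, ρ.character (z (Multiplicative.ofAdd v) * i) = LinearMap.trace ℂ _ (Pm * ρ i) := by
      show _ = LinearMap.trace ℂ _ ((∑ v : A, ρ (z (Multiplicative.ofAdd v))) * ρ i)
      rw [Finset.sum_mul, map_sum]
      refine Finset.sum_congr rfl (fun v _ => ?_)
      rw [← map_mul]
      rfl
    rw [h1, hP0, zero_mul, map_zero]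
  have hconst : ∀ v : A, ρ.character (z (Multiplicative.ofAdd v) * i) = ρ.character i := by
    intro v
    obtain ⟨k, hk⟩ := hodd
    let w : A := (k + 1) • v
    have h2w : w + w = v := by
      have h1 : Fintype.card A • v = 0 := card_nsmul_eq_zero
      have h2 : w + w = Fintype.card A • v + v := by
        simp only [w]
        rw [hk, ← add_nsmul, ← succ_nsmul]
        congr 1
        omega
      rw [h2, h1, zero_add]
    have hzinv : (z (Multiplicative.ofAdd w))⁻¹ = z (Multiplicative.ofAdd (-w)) := by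
      rw [← map_inv]; rfl
    have h3 : z (Multiplicative.ofAdd w) * i * (z (Multiplicative.ofAdd w))⁻¹ =
        z (Multiplicative.ofAdd v) * i := by
      have h4 := hiz (-w)
      rw [neg_neg] at h4
      calc z (Multiplicative.ofAdd w) * i * (z (Multiplicative.ofAdd w))⁻¹
          = z (Multiplicative.ofAdd w) * (i * z (Multiplicative.ofAdd (-w)) * i⁻¹) * i := by
            rw [hzinv]; group
        _ = z (Multiplicative.ofAdd w) * z (Multiplicative.ofAdd w) * i := by rw [h4]
        _ = z (Multiplicative.ofAdd v) * i := by rw [← map_mul, ← ofAdd_add, h2w]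
    rw [← h3, Representation.char_conj]
  rw [Finset.sum_congr rfl (fun v _ => hconst v), Finset.sum_const, Finset.card_univ,
    ← Nat.cast_smul_eq_nsmul ℂ, smul_eq_mul] at hsum
  exact (mul_eq_zero.1 hsum).resolve_left hcard

end Cfsg.Agent.Lib.Lead.ReeDeg
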