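import Cfsg.Agent.Lib.Helper39.GL2Char.Unip
import Cfsg.Agent.Lib.Helper80.Inflation

set_option autoImplicit false

namespace Cfsg.Agent.Lib.Lead.ReeDeg

open Cfsg Cfsg.Agent.Lib Cfsg.Agent.Lib.Helper15
open scoped ComplexConjugate

/-- [D-C] -/
theorem four_dvd_of_klein {G : Type*} [Group G] [Finite G] (i j : G) (hi : i * i = 1) (hj : j * j = 1)
    (hc : i * j = j * i) {χ : G → ℂ} (hχ : IsCharacter G χ) (h1 : χ i = 0) (h2 : χ j = 0) (h3 : χ (i * j) = 0)
    {n : ℕ} (hn : χ 1 = n) : 4 ∣ n := by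
  obtain ⟨d, ρ, rfl⟩ := hχ
  set A := ρ i with hA
  set B := ρ j with hB
  have hAA : A * A = 1 := by rw [hA, ← map_mul, hi, map_one]
  have hBB : B * B = 1 := by rw [hB, ← map_mul, hj, map_one]
  have hAB : A * B = B * A := by rw [hA, hB, ← map_mul, ← map_mul, hc]
  let e : Module.End ℂ (Fin d → ℂ) := (4 : ℂ)⁻¹ • ((1 + A) * (1 + B))
  have h1A : (1 + A) * (1 + A) = (2 : ℂ) • (1 + A) := by
    rw [mul_add, add_mul, add_mul, hAA, one_mul, mul_one, one_mul, two_smul]
    abel
  have h1B : (1 + B) * (1 + B) = (2 : ℂ) • (1 + B) := by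
    rw [mul_add, add_mul, add_mul, hBB, one_mul, mul_one, one_mul, two_smul]
    abel
  have hcomm : (1 + B) * (1 + A) = (1 + A) * (1 + B) := by
    rw [mul_add, add_mul, add_mul, mul_add, add_mul, add_mul, hAB]
    simp only [one_mul, mul_one]
    abel
  have he : IsIdempotentElem e := by
    show e * e = e
    simp only [e]
    rw [smul_mul_smul_comm]
    have : (1 + A) * (1 + B) * ((1 + A) * (1 + B)) = (4 : ℂ) • ((1 + A) * (1 + B)) := by
      calc (1 + A) * (1 + B) * ((1 + A) * (1 + B))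
          = (1 + A) * ((1 + B) * (1 + A)) * (1 + B) := by simp only [mul_assoc]
        _ = ((1 + A) * (1 + A)) * ((1 + B) * (1 + B)) := by rw [hcomm]; simp only [mul_assoc]
        _ = (4 : ℂ) • ((1 + A) * (1 + B)) := by
          rw [h1A, h1B, smul_mul_smul_comm]; norm_num
    rw [this, smul_smul]
    congr 1
    norm_num
  have htr := (LinearMap.IsIdempotentElem.isProj_range e he).trace
  have hexp : (1 + A) * (1 + B) = 1 + A + B + ρ (i * j) := by
    rw [map_mul, mul_add, add_mul, add_mul]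
    simp only [one_mul, mul_one]
    abel
  have ht1 : LinearMap.trace ℂ _ (1 : Module.End ℂ (Fin d → ℂ)) = n := by
    rw [← hn, ← map_one ρ]
    rfl
  have htA : LinearMap.trace ℂ _ A = 0 := h1
  have htB : LinearMap.trace ℂ _ B = 0 := h2
  have htAB : LinearMap.trace ℂ _ (ρ (i * j)) = 0 := h3
  have hte : LinearMap.trace ℂ _ e = (4 : ℂ)⁻¹ * n := by
    show LinearMap.trace ℂ _ ((4 : ℂ)⁻¹ • ((1 + A) * (1 + B))) = _
    rw [map_smul, hexp, map_add, map_add, map_add, ht1, htA, htB, htAB]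
    simp
  rw [hte] at htr
  refine ⟨Module.finrank ℂ (LinearMap.range e), ?_⟩
  have h4 : (n : ℂ) = 4 * (Module.finrank ℂ (LinearMap.range e) : ℂ) := by
    rw [← htr]
    ring
  exact_mod_cast h4

end Cfsg.Agent.Lib.Lead.ReeDeg
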