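import Cfsg.Agent.Lib.Lead.ReeAbs.Final
import Cfsg.Agent.Lib.Lead.ReeSimple
import Cfsg.Agent.Lib.Lead.ReeDeg.DA
import Cfsg.Agent.Lib.Lead.ReeDeg.DB
import Cfsg.Agent.Lib.Lead.ReeDeg.DC

/-! # The minimal degree of a nontrivial irreducible character of `²G₂(q)` -/

set_option autoImplicit false

namespace Cfsg.Agent.Lib.Lead.ReeDeg

open Cfsg Cfsg.Agent.Lib Cfsg.Agent.Lib.Helper15
open scoped ComplexConjugate

theorem not_ker_of_simple {G : Type*} [Group G] [Finite G] [hs : IsSimpleGroup G] {χ : G → ℂ}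
    (hχ : IsIrrCharacter G χ) (h1 : χ 1 ≠ 1) {g : G} (hg : g ≠ 1) : χ g ≠ χ 1 := by
  classical
  have := Fintype.ofFinite G
  intro h
  have hn := Helper80.charKer_normal (irr_char hχ)
  rcases hs.eq_bot_or_eq_top_of_normal _ hn with hb | ht
  · have hmem : g ∈ Helper80.charKer χ (irr_char hχ) := h
    rw [hb, Subgroup.mem_bot] at hmem
    exact hg hmem
  · have hall : ∀ g, χ g = χ 1 := by
      intro g
      have : g ∈ Helper80.charKer χ (irr_char hχ) := by rw [ht]; trivial
      exact this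
    have h2 := irr_inner_self hχ
    unfold classInner at h2
    simp_rw [hall] at h2
    obtain ⟨n, hn⟩ := char_one_nat (irr_char hχ)
    rw [hn] at h2
    rw [Finset.sum_const, Finset.card_univ, nsmul_eq_mul, Complex.conj_natCast,
      Nat.card_eq_fintype_card] at h2
    have hc : (Fintype.card G : ℂ) ≠ 0 := by exact_mod_cast Fintype.card_ne_zero
    rw [← mul_assoc, inv_mul_cancel₀ hc, one_mul] at h2
    have h3 : n * n = 1 := by exact_mod_cast h2
    have h4 : n = 1 := Nat.eq_one_of_mul_eq_one_right h3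
    apply h1
    rw [hn, h4]
    simp

theorem cf_conj {G : Type*} [Group G] {χ : G → ℂ} (hχ : IsClassFunction G χ) {x y : G} (h : IsConj x y) :
    χ x = χ y := by
  obtain ⟨c, hc⟩ := isConj_iff.1 h
  rw [← hc]
  exact (hχ x c).symm

theorem min_degree_abs {G : Type*} [Group G] [Finite G] [IsSimpleGroup G] {F : Type*} [Field F] [Fintype F]
    (hq : Fintype.card F % 4 = 3)
    (a : Multiplicative (F × F) →* G) (ha : a (Multiplicative.ofAdd (0, 1)) ≠ 1)
    (hx : ∀ t u v : F, IsConj (a (Multiplicative.ofAdd (u, v))) (a (Multiplicative.ofAdd (u, v + t * u))))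
    (hh : ∀ v : F, v ≠ 0 → IsConj (a (Multiplicative.ofAdd (0, v))) (a (Multiplicative.ofAdd (0, 1))))
    (i j : G) (hi : i * i = 1) (hj : j * j = 1) (hc : i * j = j * i)
    (hiz : ∀ v : F, i * a (Multiplicative.ofAdd (0, v)) * i⁻¹ = a (Multiplicative.ofAdd (0, -v)))
    (hji : IsConj j i) (hiji : IsConj (i * j) i)
    {χ : G → ℂ} (hχ : IsIrrCharacter G χ) (h1 : χ 1 ≠ 1) {n : ℕ} (hn : χ 1 = n) :
    Fintype.card F ^ 2 - Fintype.card F + 1 ≤ n := by
  obtain ⟨a0, e, he, hdec, hsum⟩ := deg_decomp a hx hh (irr_char hχ) (not_ker_of_simple hχ h1 ha) hn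
  set q := Fintype.card F with hqdef
  have hq1 : 1 ≤ q := by omega
  have hqq : q ^ 2 - q = (q - 1) * q := by
    obtain ⟨k, hk⟩ : ∃ k, q = k + 1 := ⟨q - 1, by omega⟩
    rw [hk, Nat.add_sub_cancel]
    apply Nat.sub_eq_of_eq_add
    ring
  rw [hqq]
  by_contra hlt
  push Not at hlt
  have hle : (q - 1) * q * e ≤ (q - 1) * q := by omega
  have hpos : 0 < (q - 1) * q := by
    have : 0 < q - 1 := by omega
    positivity
  have he1 : e = 1 := by
    have : e ≤ 1 := by
      by_contra h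
      push Not at h
      have : (q - 1) * q * 2 ≤ (q - 1) * q * e := Nat.mul_le_mul_left _ h
      omega
    omega
  subst he1
  have ha0 : a0 = 0 := by omega
  subst ha0
  let z : Multiplicative F →* G := a.comp
    (AddMonoidHom.toMultiplicative (AddMonoidHom.inr F F))
  have hz : ∀ v : F, z (Multiplicative.ofAdd v) = a (Multiplicative.ofAdd (0, v)) := fun v => rfl
  have hodd : Odd (Fintype.card F) := by
    rw [Nat.odd_iff]
    omega
  have hi0 : χ i = 0 := by
    apply char_eq_zero_of_sum hodd z i hi (fun v => by rw [hz, hz, hiz]) (irr_char hχ)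
    simp_rw [hz]
    rw [hsum]
    simp
  have hj0 : χ j = 0 := by rw [cf_conj (irr_cf hχ) hji, hi0]
  have hij0 : χ (i * j) = 0 := by rw [cf_conj (irr_cf hχ) hiji, hi0]
  have h4 := four_dvd_of_klein i j hi hj hc (irr_char hχ) hi0 hj0 hij0 hn
  rw [hdec] at h4
  obtain ⟨k, hk⟩ : ∃ k, q = 4 * k + 3 := ⟨q / 4, by omega⟩
  rw [hk] at h4
  have e1 : 0 + (4 * k + 3 - 1) * (4 * k + 3) * 1 = 4 * (4 * k * k + 5 * k + 1) + 2 := by
    have : 4 * k + 3 - 1 = 4 * k + 2 := by omega
    rw [this]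
    ring
  rw [e1] at h4
  omega

end Cfsg.Agent.Lib.Lead.ReeDeg
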