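import Cfsg.Agent.Lib.Lead.ReeDeg.Main

/-! # The minimal degree of a nontrivial irreducible character of `²G₂(q)`: the model -/

set_option autoImplicit false

namespace Cfsg.Agent.Lib.Lead.ReeDeg

open Cfsg Cfsg.Lie Cfsg.Agent.Lib Cfsg.Agent.Lib.Helper15 Cfsg.Agent.Lib.Lead.Ree Cfsg.Agent.Lib.Lead.ReeAbs
  Cfsg.Agent.Lib.Helper6 Cfsg.Agent.Lib.Helper18 Cfsg.Agent.Lib.Lead.ChevSpecial
  Cfsg.Agent.Lib.Lead.FixTwist Cfsg.Agent.Lib.Helper17

/-- a Klein four-group of conjugate involutions through a given involution -/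
theorem exists_klein {G : Type*} [Group G] [Finite G] {a0 : G} (hs : Syl2 G a0) (i : G) (hi1 : i ≠ 1)
    (hi : i * i = 1) : ∃ j : G, j * j = 1 ∧ i * j = j * i ∧ IsConj j i ∧ IsConj (i * j) i := by
  classical
  have : Fact (Nat.Prime 2) := ⟨by norm_num⟩
  have hp : IsPGroup 2 (Subgroup.zpowers i) := by
    rw [IsPGroup.iff_card]
    refine ⟨1, ?_⟩
    rw [Nat.card_zpowers, pow_one]
    exact orderOf_eq_prime (by rw [sq]; exact hi) hi1
  obtain ⟨S, hS⟩ := hp.exists_le_sylow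
  have hiS : i ∈ S := hS (Subgroup.mem_zpowers i)
  have hcard := hs.card S
  obtain ⟨j, hjS, hj1, hji⟩ : ∃ j ∈ (S : Subgroup G), j ≠ 1 ∧ j ≠ i := by
    by_contra hcon
    push Not at hcon
    have hsub : ((S : Subgroup G) : Set G) ⊆ {1, i} := by
      intro x hx
      by_cases h : x = 1
      · left; exact h
      · right; exact hcon x hx h
    have h2 : Nat.card (S : Subgroup G) ≤ 2 := by
      have h3 := Set.ncard_le_ncard hsub (Set.toFinite _)
      have h4 : ({1, i} : Set G).ncard ≤ 2 := Set.ncard_insert_le _ _ |>.trans (by simp)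
      have h5 : Nat.card (S : Subgroup G) = ((S : Subgroup G) : Set G).ncard := rfl
      omega
    have : Nat.card (S : Subgroup G) = 8 := hcard
    omega
  have hjj : j * j = 1 := hs.exp S j hjS
  have hijij : (i * j) * (i * j) = 1 := hs.exp S _ (S.mul_mem hiS hjS)
  have hc : i * j = j * i := by
    have h1 : i * j = (i * j)⁻¹ := eq_inv_of_mul_eq_one_left hijij
    rw [h1, mul_inv_rev, inv_eq_of_mul_eq_one_left hjj, inv_eq_of_mul_eq_one_left hi]
  have hconj : ∀ t : G, t ≠ 1 → t * t = 1 → IsConj t i := by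
    intro t ht1 ht
    obtain ⟨g, hg⟩ := hs.conj t ht1 ht
    obtain ⟨g', hg'⟩ := hs.conj i hi1 hi
    have h1 : IsConj a0 t := isConj_iff.2 ⟨g, hg⟩
    have h2 : IsConj a0 i := isConj_iff.2 ⟨g', hg'⟩
    exact h1.symm.trans h2
  refine ⟨j, hjj, hc, hconj j hj1 hjj, hconj _ ?_ hijij⟩
  intro h
  apply hji
  have : j = i⁻¹ := eq_inv_of_mul_eq_one_right h
  rw [this, inv_eq_of_mul_eq_one_left hi]

theorem min_degree {K : Type*} [Field K] [Fintype K] {m : ℕ} (hm : 1 ≤ m) (hK : Fintype.card K = 3 ^ (2 * m + 1))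
    {χ : ↥(twistedG2 K (3 ^ m)) → ℂ} (hχ : IsIrrCharacter ↥(twistedG2 K (3 ^ m)) χ) (h1 : χ 1 ≠ 1) {n : ℕ}
    (hn : χ 1 = n) : (3 ^ (2 * m + 1)) ^ 2 - 3 ^ (2 * m + 1) + 1 ≤ n := by
  classical
  have : Fact (Nat.Prime 3) := ⟨by norm_num⟩
  have : CharP K 3 := charP_of_card_eq_prime_pow hK
  obtain ⟨T, -, hρR, hf⟩ := Cfsg.Agent.Lib.Lead.Ree.exists_twist hK
  obtain ⟨X, hs, -, -⟩ := exists_str1 hm hK
  have hsimple := (Ree.simple hK T hρR hf hm).1
  have hW0 : Wd hK T hρR hf 0 0 0 = 1 := by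
    have := Wd_zero_mul hK T hρR hf 0 0 0 0
    rw [add_zero] at this
    exact mul_eq_left.mp this
  let a : Multiplicative (K × K) →* ↥(twistedG2 K (3 ^ m)) :=
    { toFun := fun p => ⟨Wd hK T hρR hf 0 (Multiplicative.toAdd p).1 (Multiplicative.toAdd p).2, Wd_mem_G1 hK T hρR hf _ _ _⟩
      map_one' := Subtype.ext hW0
      map_mul' := fun p p' => Subtype.ext (Wd_zero_mul hK T hρR hf _ _ _ _).symm }
  have ha : ∀ u v : K, ((a (Multiplicative.ofAdd (u, v)) : ↥(twistedG2 K (3 ^ m))) : GL chevG2.Idx K) =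
      Wd hK T hρR hf 0 u v := fun u v => rfl
  let i : ↥(twistedG2 K (3 ^ m)) := ⟨hR K m (-1), hR_mem_G1 hK T hρR hf (-1)⟩
  have hi1 : i ≠ 1 := by
    intro h
    have h1 : hR K m (-1) = 1 := congrArg Subtype.val h
    exact neg_one_ne_one (K := K) (hR_injective (K := K) (m := m) (by rw [h1, map_one]))
  have hi : i * i = 1 := Subtype.ext a0_sq
  obtain ⟨j, hj, hc, hji, hiji⟩ := exists_klein hs i hi1 hi
  have hz : (0 : K) ^ 3 ^ (m + 1) = 0 := zero_pow (by positivity)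
  rw [← hK]
  refine min_degree_abs (card_mod4 hK) a ?_ ?_ ?_ i j hi hj hc ?_ hji hiji hχ h1 hn
  · intro h
    have h2 : Wd hK T hρR hf 0 0 1 = 1 := congrArg Subtype.val h
    exact Wd_ne_one hK T hρR hf (t := 0) (u := 0) (v := 1) (by simp) h2
  · intro t u v
    rw [isConj_iff]
    refine ⟨⟨Wd hK T hρR hf t 0 0, Wd_mem_G1 hK T hρR hf _ _ _⟩, ?_⟩
    rw [mul_inv_eq_iff_eq_mul]
    apply Subtype.ext
    show Wd hK T hρR hf t 0 0 * Wd hK T hρR hf 0 u v = Wd hK T hρR hf 0 u (v + t * u) * Wd hK T hρR hf t 0 0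
    rw [Wd_mul, Wd_mul, hz]
    congr 1 <;> ring
  · intro v hv
    rw [isConj_iff]
    refine ⟨⟨hR K m (Units.mk0 v hv)⁻¹, hR_mem_G1 hK T hρR hf _⟩, ?_⟩
    apply Subtype.ext
    show hR K m (Units.mk0 v hv)⁻¹ * Wd hK T hρR hf 0 0 v * (hR K m (Units.mk0 v hv)⁻¹)⁻¹ = Wd hK T hρR hf 0 0 1
    rw [conj_Wd, mul_zero, mul_zero]
    congr 1
    simp [hv]
  · intro v
    apply Subtype.ext
    show hR K m (-1) * Wd hK T hρR hf 0 0 v * (hR K m (-1))⁻¹ = Wd hK T hρR hf 0 0 (-v)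
    rw [conj_Wd, mul_zero, mul_zero]
    congr 1
    simp

end Cfsg.Agent.Lib.Lead.ReeDeg
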